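import Cfsg.Agent.H991.OverS

/-!
# Criteria for the fusion system of a finite group to be simple (helper991)

* `isSimple_of_group` : no proper nontrivial strongly closed subgroup and `Aut_G(S)` generated by suitable
  automorphisms;
* `autInducedBy_closure_le` : the automorphisms of `S` induced by the group generated by the `p`-elements of `N_G(R)`
  are suitable, `R` fully normalized and centric;
(more forms in GroupSimple.lean)

-/

set_option autoImplicit false

namespace Cfsg.Agent.H991

open Cfsg Cfsg.FusionSystem Cfsg.Agent.H802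

variable {G : Type*} [Group G] {p : ℕ}

theorem autGroup_group {S : Subgroup G} {P : Subgroup G} (hP : P ≤ S) :
    (groupFusionSystem S).autGroup P = autInducedBy ⊤ P := by
  rw [groupFusionSystem_eq]
  exact fs_autGroup le_top hP

/-- The criterion for groups. -/
theorem isSimple_of_group [Fact p.Prime] [Finite G] (S : Sylow p G) (hS1 : (S : Subgroup G) ≠ ⊥)
    (ha : ∀ T : Subgroup G, (groupFusionSystem (S : Subgroup G)).StronglyClosed T →
      T = ⊥ ∨ T = (S : Subgroup G))
    (hb : autInducedBy ⊤ (S : Subgroup G) ≤ Subgroup.closure {α : MulAut (S : Subgroup G) |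
      α ∈ (groupFusionSystem (S : Subgroup G)).autGroup (S : Subgroup G) ∧
        Gen (groupFusionSystem (S : Subgroup G)) p α}) :
    (groupFusionSystem (S : Subgroup G)).IsSimple p :=
  isSimple_of_generated S.isPGroup' (groupFusionSystem_isSaturated S) hS1 ha
    ((autGroup_group le_rfl).le.trans hb)

/-- Conjugation by an element of the group generated by the `p`-elements of `N_G(R)`, on `R`. -/
theorem conj_mem_closure [Fact p.Prime] [Finite G] {S R : Subgroup G} (hR : R ≤ S) {g : G}
    (hg : g ∈ Subgroup.closure {g : G | g ∈ Subgroup.normalizer (R : Set G) ∧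
      ∃ k : ℕ, orderOf g = p ^ k}) :
    ∃ γ ∈ Subgroup.closure {γ : MulAut R | γ ∈ (groupFusionSystem S).autGroup R ∧
      ∃ k : ℕ, orderOf γ = p ^ k}, ∀ x : R, ((γ x : R) : G) = g * (x : G) * g⁻¹ := by
  refine Subgroup.closure_induction (p := fun (g : G) _ =>
    ∃ γ ∈ Subgroup.closure {γ : MulAut R | γ ∈ (groupFusionSystem S).autGroup R ∧
      ∃ k : ℕ, orderOf γ = p ^ k}, ∀ x : R, ((γ x : R) : G) = g * (x : G) * g⁻¹) ?_ ?_ ?_ ?_ hg
  · rintro g ⟨hgN, k, hk⟩
    obtain ⟨γ, hγ⟩ := exists_conjAut hgN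
    refine ⟨γ, Subgroup.subset_closure ⟨?_, ?_⟩, hγ⟩
    · rw [autGroup_group hR, mem_autInducedBy_iff]
      exact ⟨g, Subgroup.mem_top g, hγ⟩
    · have hpow : ∀ (n : ℕ) (x : R), (((γ ^ n) x : R) : G) = g ^ n * (x : G) * (g ^ n)⁻¹ := by
        intro n
        induction n with
        | zero => intro x; simp
        | succ n ih =>
          intro x
          rw [pow_succ, MulAut.mul_apply, ih, hγ, pow_succ]
          group
      have h1 : γ ^ p ^ k = 1 := by
        refine MulEquiv.ext fun x => Subtype.ext ?_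
        rw [hpow, ← hk, pow_orderOf_eq_one]
        simp
      obtain ⟨j, -, hj⟩ := (Nat.dvd_prime_pow Fact.out).1 (orderOf_dvd_of_pow_eq_one h1)
      exact ⟨j, hj⟩
  · exact ⟨1, Subgroup.one_mem _, fun x => by simp⟩
  · rintro a b _ _ ⟨γ, hγ, h1⟩ ⟨δ, hδ, h2⟩
    refine ⟨γ * δ, Subgroup.mul_mem _ hγ hδ, fun x => ?_⟩
    rw [MulAut.mul_apply, h1, h2]
    group
  · rintro a _ ⟨γ, hγ, h1⟩
    refine ⟨γ⁻¹, Subgroup.inv_mem _ hγ, fun x => ?_⟩
    have h2 := h1 (γ⁻¹ x)
    have h3 : γ (γ⁻¹ x) = x := γ.apply_symm_apply x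
    rw [h3] at h2
    rw [h2]
    group

theorem autInducedBy_closure_le [Fact p.Prime] [Finite G] (S : Sylow p G) {R : Subgroup G}
    (hR : (groupFusionSystem (S : Subgroup G)).IsFullyNormalized R)
    (hRc : (groupFusionSystem (S : Subgroup G)).IsCentric R) :
    autInducedBy (Subgroup.closure {g : G | g ∈ Subgroup.normalizer (R : Set G) ∧
      ∃ k : ℕ, orderOf g = p ^ k}) (S : Subgroup G) ≤
      Subgroup.closure {α : MulAut (S : Subgroup G) |
        α ∈ (groupFusionSystem (S : Subgroup G)).autGroup (S : Subgroup G) ∧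
          Gen (groupFusionSystem (S : Subgroup G)) p α} := by
  intro α hα
  obtain ⟨g, hg, he⟩ := (mem_autInducedBy_iff _ _ _).1 hα
  refine Subgroup.subset_closure ⟨?_, Or.inr ⟨R, hRc, ?_, ?_⟩⟩
  · rw [autGroup_group le_rfl, mem_autInducedBy_iff]
    exact ⟨g, Subgroup.mem_top g, he⟩
  · exact isFullyAutomized_of_isFullyNormalized S.isPGroup' (groupFusionSystem_isSaturated S) hR
  · obtain ⟨γ, hγ, h1⟩ := conj_mem_closure (S := (S : Subgroup G)) hR.1 hg
    exact ⟨γ, hγ, fun x => (he _).trans (h1 x).symm⟩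

end Cfsg.Agent.H991
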