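import Cfsg.Agent.H991.SprMcL.Data
import Cfsg.Agent.H991.SprMcL.Outer
import Cfsg.Agent.H991.SprMcL.Three
import Cfsg.Agent.H991.SprMcL.Five
import Cfsg.Agent.McLType.ThreeElts

/-!
# S3938 (3/2-generation), row `McL` (helper991)

Explicit generation in the permutation model on 275 points.
-/

set_option autoImplicit false
set_option maxRecDepth 100000

namespace Cfsg.Agent.H991.SprMcL

open Cfsg Cfsg.Agent.SporadicA.PermTab Cfsg.Agent.McLType.X275 Cfsg.Agent.McLType.Gens Subgroup Equiv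
open Cfsg.Agent.H904.McLCent Cfsg.Agent.H609.TH Cfsg.Agent.H991.SprMcL.Gen Cfsg.Agent.H991.SprMcL.Data
open Cfsg.Agent.TypeM.Two Cfsg.Agent.TypeM.FactsAut

universe u

/-! ### Elements given by tables -/

/-- `g` acts as the table `P` -/
def Tab {T : Type u} [Group T] (θ : T →* Perm (Fin 275)) (g : T) (P : ℕ) : Prop :=
  ∀ i : Fin 275, ((θ g i : Fin 275) : ℕ) = lk P i

/-- the two tables commute -/
def chkComm (P Q : ℕ) : Bool := allB (fun i => Nat.beq (lk P (lk Q i)) (lk Q (lk P i))) 275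

section

variable {T : Type u} [Group T] {θ : T →* Perm (Fin 275)}

theorem Tab.mul {g h : T} {P Q : ℕ} (hg : Tab θ g P) (hh : Tab θ h Q) (i : Fin 275) :
    ((θ (g * h) i : Fin 275) : ℕ) = lk P (lk Q i) := by
  rw [map_mul, Perm.mul_apply, hg, hh]

theorem Tab.inv {g : T} {P Q : ℕ} (hg : Tab θ g P) (hc : chkInv 275 P Q = true) : Tab θ g⁻¹ Q := by
  intro i
  obtain ⟨-, h1, -, h2⟩ := chkInv_spec hc i
  have h3 : θ g ⟨lk Q i, h1⟩ = i := Fin.ext ((hg _).trans h2)
  have h4 : (θ g)⁻¹ i = ⟨lk Q i, h1⟩ := by rw [Perm.inv_eq_iff_eq, h3]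
  rw [map_inv, h4]

theorem Tab.comm (R : Rep T θ) {g h : T} {P Q : ℕ} (hg : Tab θ g P) (hh : Tab θ h Q) (hc : chkComm P Q = true) :
    g * h = h * g := by
  apply R.inj
  refine Equiv.ext fun i => Fin.ext ?_
  rw [hg.mul hh, hh.mul hg]
  exact Nat.eq_of_beq_eq_true ((allB_iff _ _).1 hc i i.2)

/-! ### Numbers of fixed points -/

/-- the number of fixed points -/
def fx (q : Perm (Fin 275)) : ℕ := (Finset.univ.filter fun i : Fin 275 => q i = i).card

theorem fx_conj (u q : Perm (Fin 275)) : fx (u * q * u⁻¹) = fx q := by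
  unfold fx
  symm
  refine Finset.card_bij (fun i _ => u i) ?_ ?_ ?_
  · intro i hi
    rw [Finset.mem_filter] at hi ⊢
    refine ⟨Finset.mem_univ _, ?_⟩
    rw [Perm.mul_apply, Perm.mul_apply, show u⁻¹ (u i) = i from u.symm_apply_apply i, hi.2]
  · intro i _ j _ hij
    exact u.injective hij
  · intro i hi
    rw [Finset.mem_filter, Perm.mul_apply, Perm.mul_apply] at hi
    refine ⟨u⁻¹ i, ?_, u.apply_symm_apply i⟩
    rw [Finset.mem_filter]
    exact ⟨Finset.mem_univ _, by rw [Perm.eq_inv_iff_eq]; exact hi.2⟩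

theorem fx_of {q : Perm (Fin 275)} {P m : ℕ} (h : ∀ i : Fin 275, (q i : ℕ) = lk P i)
    (hc : cntB (fun i => Nat.beq (lk P i) i) 275 m = true) : fx q = m := by
  rw [← card_fin_of_cntB _ 275 m hc]
  unfold fx
  congr 1
  apply Finset.filter_congr
  intro i _
  rw [Fin.ext_iff, h, Nat.beq_eq]

/-! ### Elements of order 2, 3, 5, 7, 11 -/

theorem good_two (R : Rep T θ) (L : MT 8 T) (g : T) (hg : orderOf g = 2) : GoodI g := by
  obtain ⟨x, hx⟩ := R.exists_of (inAll e_a (by simp [e7]))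
  have hxo : orderOf x = 2 := R.orderOf_eq hx (by norm_num) (by decide +kernel) 1 (by decide +kernel)
  obtain ⟨h1, h2⟩ := MT.sq_of_orderOf hg
  obtain ⟨h3, h4⟩ := MT.sq_of_orderOf hxo
  obtain ⟨u, hu⟩ := L.conj_of_involutions h1 h2 h3 h4
  refine GoodI.of_conj u ?_
  rw [hu]
  exact goodI_of_tab R hx in_x_r2 chk_r2

theorem good_three (R : Rep T θ) (L : MT 8 T)
    (hcomm : ∀ x : T, orderOf x = 3 → ∃ s : T, orderOf s = 2 ∧ s * x = x * s) (g : T) (hg : orderOf g = 3) : GoodI g := by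
  obtain ⟨a, ha⟩ := R.exists_of in_t_r3a
  obtain ⟨b, hb⟩ := R.exists_of in_t_r3b
  have hao : orderOf a = 3 := R.orderOf_eq ha (by norm_num) (by decide +kernel) 1 (by decide +kernel)
  have hbo : orderOf b = 3 := R.orderOf_eq hb (by norm_num) (by decide +kernel) 1 (by decide +kernel)
  have hga : GoodI a := goodI_of_tab R ha in_x_r3a chk_r3a
  have hgb : GoodI b := goodI_of_tab R hb in_x_r3b chk_r3b
  have hfa : fx (θ a) = 5 := fx_of ha (by decide +kernel)
  have hfb : fx (θ b) = 14 := fx_of hb (by decide +kernel)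
  obtain ⟨X₁, X₂, hX⟩ := Three.exists_two L hcomm
  -- conjugate elements
  have hfx : ∀ {u v x y X : T}, u * x * u⁻¹ = X → v * y * v⁻¹ = X → fx (θ x) = fx (θ y) := by
    intro u v x y X h1 h2
    rw [← fx_conj (θ u) (θ x), ← fx_conj (θ v) (θ y), ← map_inv, ← map_inv, ← map_mul, ← map_mul, ← map_mul, ← map_mul,
      h1, h2]
  have hgood : ∀ {u v x y X : T}, u * x * u⁻¹ = X → v * y * v⁻¹ = X → GoodI y → GoodI x := by
    intro u v x y X h1 h2 hy
    refine GoodI.of_conj (v⁻¹ * u) ?_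
    have h3 : v⁻¹ * u * x * (v⁻¹ * u)⁻¹ = y := by
      calc v⁻¹ * u * x * (v⁻¹ * u)⁻¹ = v⁻¹ * (u * x * u⁻¹) * v := by group
        _ = v⁻¹ * (v * y * v⁻¹) * v := by rw [h1, h2]
        _ = y := by group
    rwa [h3]
  rcases hX a hao with ⟨ua, h1⟩ | ⟨ua, h1⟩ <;> rcases hX b hbo with ⟨ub, h2⟩ | ⟨ub, h2⟩
  · have := hfx h1 h2
    omega
  · rcases hX g hg with ⟨v, h3⟩ | ⟨v, h3⟩
    · exact hgood h3 h1 hga
    · exact hgood h3 h2 hgb
  · rcases hX g hg with ⟨v, h3⟩ | ⟨v, h3⟩
    · exact hgood h3 h2 hgb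
    · exact hgood h3 h1 hga
  · have := hfx h1 h2
    omega

theorem chkz : chkWord 275 t_r5z [t_r5c0, t_r5b, i_r5c0, i_r5b] = true := by decide +kernel

theorem good_five [Finite T] (hcard : Nat.card T = 898128000) (R : Rep T θ) (g : T) (hg : orderOf g = 5) : GoodI g := by
  obtain ⟨a, ha⟩ := R.exists_of in_t_r5c0
  obtain ⟨b, hb⟩ := R.exists_of in_t_r5b
  have ha' : Tab θ a⁻¹ i_r5c0 := Tab.inv ha (by decide +kernel)
  have hb' : Tab θ b⁻¹ i_r5b := Tab.inv hb (by decide +kernel)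
  obtain ⟨z, hzd⟩ : ∃ z, z = b⁻¹ * a⁻¹ * b * a := ⟨_, rfl⟩
  have hz : Tab θ z t_r5z := by
    intro i
    have h1 := Nat.eq_of_beq_eq_true ((allB_iff _ _).1 chkz i i.2)
    rw [h1, hzd, map_mul, map_mul, map_mul, Perm.mul_apply, Perm.mul_apply, Perm.mul_apply, hb', ha', hb, ha]
    rfl
  have hao : orderOf a = 5 := R.orderOf_eq ha (by norm_num) (by decide +kernel) 1 (by decide +kernel)
  have hbo : orderOf b = 5 := R.orderOf_eq hb (by norm_num) (by decide +kernel) 1 (by decide +kernel)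
  have hzo : orderOf z = 5 := R.orderOf_eq hz (by norm_num) (by decide +kernel) 1 (by decide +kernel)
  have Rl : Five.Rel a b z := {
    ba := by rw [hzd]; group
    za := Tab.comm R hz ha (by decide +kernel)
    zb := Tab.comm R hz hb (by decide +kernel)
    a5 := by rw [← hao, pow_orderOf_eq_one]
    b5 := by rw [← hbo, pow_orderOf_eq_one]
    z5 := by rw [← hzo, pow_orderOf_eq_one]
    z1 := by
      rintro rfl
      rw [orderOf_one] at hzo
      omega }
  refine Five.goodI_five (m := 7185024) (by rw [hcard]; norm_num) (by norm_num) Rl (goodI_of_tab R hz in_x_r5z chk_r5z)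
    (goodI_of_tab R hb in_x_r5b chk_r5b) (fun l hl => ?_) g hg
  have hm : ∀ {l : ℕ} {S S' : ℕ}, Tab θ (a * b ^ l) S → chkWord 275 S' [t_r5b, S] = true → Tab θ (a * b ^ (l + 1)) S' := by
    intro l S S' h hc i
    have h1 := Nat.eq_of_beq_eq_true ((allB_iff _ _).1 hc i i.2)
    rw [h1, pow_succ, ← mul_assoc, Tab.mul h hb]
    rfl
  have h0 : Tab θ (a * b ^ 0) t_r5c0 := by rw [pow_zero, mul_one]; exact ha
  have h1 : Tab θ (a * b ^ 1) t_r5c1 := hm h0 (by decide +kernel)
  have h2 : Tab θ (a * b ^ 2) t_r5c2 := hm h1 (by decide +kernel)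
  have h3 : Tab θ (a * b ^ 3) t_r5c3 := hm h2 (by decide +kernel)
  have h4 : Tab θ (a * b ^ 4) t_r5c4 := hm h3 (by decide +kernel)
  interval_cases l
  · exact goodI_of_tab R h0 in_x_r5c0 chk_r5c0
  · exact goodI_of_tab R h1 in_x_r5c1 chk_r5c1
  · exact goodI_of_tab R h2 in_x_r5c2 chk_r5c2
  · exact goodI_of_tab R h3 in_x_r5c3 chk_r5c3
  · exact goodI_of_tab R h4 in_x_r5c4 chk_r5c4

theorem good_seven [Finite T] (hcard : Nat.card T = 898128000) (R : Rep T θ) (g : T) (hg : orderOf g = 7) : GoodI g := by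
  obtain ⟨x, hx⟩ := R.exists_of inT7
  have hxo : orderOf x = 7 := R.orderOf_eq hx (by norm_num) (by decide +kernel) 1 (by decide +kernel)
  exact goodI_of_sq (by norm_num) (by rw [hcard]; norm_num) hxo (goodI_of_tab R hx in_x_r7 chk_r7) g hg

theorem good_eleven [Finite T] (hcard : Nat.card T = 898128000) (R : Rep T θ) (g : T) (hg : orderOf g = 11) :
    GoodI g := by
  obtain ⟨x, hx⟩ := R.exists_of inT11
  have hxo : orderOf x = 11 := R.orderOf_eq hx (by norm_num) e11g 0 (by decide +kernel)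
  exact goodI_of_sq (by norm_num) (by rw [hcard]; norm_num) hxo (goodI_of_tab R hx in_x_r11 chk_r11) g hg

theorem good_inner [Finite T] (hcard : Nat.card T = 898128000) (R : Rep T θ) (L : MT 8 T)
    (hcomm : ∀ x : T, orderOf x = 3 → ∃ s : T, orderOf s = 2 ∧ s * x = x * s) (g : T) (hg : (orderOf g).Prime) :
    GoodI g := by
  have h1 : orderOf g ∣ 2 ^ 7 * 3 ^ 6 * 5 ^ 3 * 7 * 11 := by
    have := orderOf_dvd_natCard g
    rw [hcard] at this
    exact this.trans (by norm_num)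
  have hp : ∀ {p q k : ℕ}, p.Prime → q.Prime → p ∣ q ^ k → p = q := fun hp hq h =>
    (Nat.prime_dvd_prime_iff_eq hp hq).1 (hp.dvd_of_dvd_pow h)
  rcases (Nat.Prime.dvd_mul hg).1 h1 with h1 | h1
  · rcases (Nat.Prime.dvd_mul hg).1 h1 with h1 | h1
    · rcases (Nat.Prime.dvd_mul hg).1 h1 with h1 | h1
      · rcases (Nat.Prime.dvd_mul hg).1 h1 with h1 | h1
        · exact good_two R L g (hp hg (by norm_num) h1)
        · exact good_three R L hcomm g (hp hg (by norm_num) h1)
      · exact good_five hcard R g (hp hg (by norm_num) h1)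
    · exact good_seven hcard R g (hp (k := 1) hg (by norm_num) (by rwa [pow_one]))
  · exact good_eleven hcard R g (hp (k := 1) hg (by norm_num) (by rwa [pow_one]))

/-! ### The outer automorphism -/

theorem alpha_inv : chkInv 275 alpha alpha = true := by decide +kernel

/-- the permutation -/
noncomputable def αp : Perm (Fin 275) := mkPerm alpha alpha alpha_inv

theorem αp_val (i : Fin 275) : (αp i : ℕ) = lk alpha i := rfl

theorem αp_sq : αp * αp = 1 := by
  refine Equiv.ext fun i => Fin.ext ?_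
  rw [Perm.mul_apply, αp_val, αp_val, (chkInv_spec alpha_inv i).2.2.1]
  rfl

theorem αp_inv : αp⁻¹ = αp := inv_eq_of_mul_eq_one_left αp_sq

theorem chk_conj : allB (fun k => allB (fun i => Nat.beq (lk alpha (lk (e7.getD k 0) (lk alpha i)))
    (ev (tw (Wal.getD k [])) i)) 275) 7 = true := by decide +kernel

theorem conj_mem {q : Perm (Fin 275)} (hq : q ∈ K0) : αp * q * αp⁻¹ ∈ K0 := by
  have hle : K0 ≤ K0.comap (MulAut.conj αp).toMonoidHom := by
    refine (closure_le _).2 ?_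
    rintro _ ⟨k, rfl⟩
    obtain ⟨y, hy, hyi⟩ := exists_ev (tw (Wal.getD k [])) (in_tw _)
    have h1 : αp * σ k * αp⁻¹ = y := by
      refine Equiv.ext fun i => Fin.ext ?_
      have h2 := Nat.eq_of_beq_eq_true ((allB_iff _ _).1 ((allB_iff _ _).1 chk_conj k k.2) i i.2)
      rw [hyi, αp_inv, Perm.mul_apply, Perm.mul_apply, αp_val, e_spec, αp_val, h2]
    change αp * σ k * αp⁻¹ ∈ K0
    rw [h1]
    exact hy
  exact hle hq

theorem conj_map : K0.map (MulAut.conj αp).toMonoidHom = K0 := by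
  refine le_antisymm ?_ fun q hq => ⟨αp * q * αp⁻¹, conj_mem hq, ?_⟩
  · rintro _ ⟨q, hq, rfl⟩
    exact conj_mem hq
  · change αp * (αp * q * αp⁻¹) * αp⁻¹ = q
    calc αp * (αp * q * αp⁻¹) * αp⁻¹ = (αp * αp) * q * (αp * αp)⁻¹ := by group
      _ = q := by rw [αp_sq]; group

/-- the outer automorphism -/
theorem exists_aut (R : Rep T θ) : ∃ A : MulAut T, ∀ x, θ (A x) = αp * θ x * αp⁻¹ := by
  let e : T ≃* K0 := (MonoidHom.ofInjective R.inj).trans (MulEquiv.subgroupCongr R.range)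
  have he : ∀ x, ((e x : K0) : Perm (Fin 275)) = θ x := fun x => rfl
  let B : K0 ≃* K0 := ((MulAut.conj αp).subgroupMap K0).trans (MulEquiv.subgroupCongr conj_map)
  refine ⟨(e.trans B).trans e.symm, fun x => ?_⟩
  rw [← he, ← he]
  change ((e (e.symm (B (e x))) : K0) : Perm (Fin 275)) = _
  rw [e.apply_symm_apply]
  rfl

theorem orb_chk : chkOrb 275 0 e_a e7 orbC = true := by decide +kernel

theorem orb_ne : allB (fun i => Nat.blt (lk orbC i) 2047) 275 = true := by decide +kernel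

theorem trans0 (v : Fin 275) : ∃ g ∈ K0, g 0 = v := by
  refine orb_of_chk (x := 0) (inAll _ (by simp [e7])) inAll orb_chk v ?_
  have h := (allB_iff _ _).1 orb_ne v v.2
  rw [Nat.blt_eq] at h
  omega

theorem w8_fix : ∀ i : Fin 275, lk w8 i = i → i = 0 := by decide +kernel

/-- the centralizer of `K0` is trivial -/
theorem eq_one_of_comm {c : Perm (Fin 275)} (hc : ∀ q ∈ K0, c * q = q * c) : c = 1 := by
  obtain ⟨w, hw, hwi⟩ := in_w8
  have h0 : w 0 = 0 := Fin.ext (by rw [hwi]; decide +kernel)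
  have h1 : c 0 = 0 := by
    have h2 : w (c 0) = c 0 := by
      have h3 := congrArg (fun q : Perm (Fin 275) => q 0) (hc w hw)
      simp only [Perm.mul_apply, h0] at h3
      exact h3.symm
    refine w8_fix _ ?_
    rw [← hwi, h2]
  refine Equiv.ext fun v => ?_
  obtain ⟨g, hg, rfl⟩ := trans0 v
  have h3 := congrArg (fun q : Perm (Fin 275) => q 0) (hc g hg)
  simp only [Perm.mul_apply, h1] at h3
  rw [h3, Perm.one_apply]

theorem fx_alpha : fx αp = 11 := fx_of αp_val (by decide +kernel)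

/-- it is not inner -/
theorem outer_of (R : Rep T θ) (L : MT 8 T) {A : MulAut T} (hA : ∀ x, θ (A x) = αp * θ x * αp⁻¹) :
    A ∉ (MulAut.conj : T →* MulAut T).range := by
  rintro ⟨g, hg⟩
  have h1 : θ g = αp := by
    have h2 : αp⁻¹ * θ g = 1 := by
      refine eq_one_of_comm fun q hq => ?_
      rw [← R.range] at hq
      obtain ⟨x, rfl⟩ := hq
      have h3 := hA x
      rw [← hg, MulAut.conj_apply, map_mul, map_mul, map_inv] at h3
      calc αp⁻¹ * θ g * θ x = αp⁻¹ * (θ g * θ x * (θ g)⁻¹) * θ g := by group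
        _ = θ x * (αp⁻¹ * θ g) := by rw [h3]; group
    rwa [inv_mul_eq_one, eq_comm] at h2
  have hgg : g * g = 1 := R.inj (by rw [map_mul, h1, αp_sq, map_one])
  have hg1 : g ≠ 1 := by
    rintro rfl
    rw [map_one] at h1
    have h2 := fx_alpha
    rw [← h1] at h2
    have h3 : fx (1 : Perm (Fin 275)) = 275 := by
      unfold fx
      rw [Finset.filter_true_of_mem (fun i _ => Perm.one_apply i), Finset.card_univ, Fintype.card_fin]
    omega
  obtain ⟨x, hx⟩ := R.exists_of (inAll e_a (by simp [e7]))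
  have hxo : orderOf x = 2 := R.orderOf_eq hx (by norm_num) (by decide +kernel) 1 (by decide +kernel)
  obtain ⟨h3, h4⟩ := MT.sq_of_orderOf hxo
  obtain ⟨u, hu⟩ := L.conj_of_involutions hgg hg1 h3 h4
  have h5 : fx (θ x) = 35 := fx_of hx (by decide +kernel)
  rw [← hu, map_mul, map_mul, map_inv, fx_conj, h1, fx_alpha] at h5
  omega

theorem sq_of (R : Rep T θ) {A : MulAut T} (hA : ∀ x, θ (A x) = αp * θ x * αp⁻¹) : A * A = 1 := by
  ext x
  apply R.inj
  rw [MulAut.mul_apply, hA, hA, MulAut.one_apply]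
  calc αp * (αp * θ x * αp⁻¹) * αp⁻¹ = (αp * αp) * θ x * (αp * αp)⁻¹ := by group
    _ = θ x := by rw [αp_sq]; group

theorem chkA : chkWord 275 t_out [alpha, x_out, alpha] = true := by decide +kernel

theorem good_A (R : Rep T θ) {A : MulAut T} (hA : ∀ x, θ (A x) = αp * θ x * αp⁻¹) : GoodA A := by
  obtain ⟨x, hx⟩ := R.exists_of in_x_out
  have h1 : Tab θ (A x) t_out := by
    intro i
    have h2 := Nat.eq_of_beq_eq_true ((allB_iff _ _).1 chkA i i.2)
    rw [h2, hA, αp_inv, Perm.mul_apply, Perm.mul_apply, αp_val, hx, αp_val]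
    rfl
  exact goodA_of_pair (closure_top R h1 hx chk_out)

theorem good_outer [Finite T] (hcard : Nat.card T = 898128000) (R : Rep T θ) (L : MT 8 T) (a : MulAut T)
    (ha : orderOf a = 2) (hout : ∀ g : T, a ≠ MulAut.conj g) : GoodA a := by
  obtain ⟨A, hA⟩ := exists_aut R
  have ha2 : a * a = 1 := by rw [← pow_two, ← ha, pow_orderOf_eq_one]
  obtain ⟨g, hg⟩ := Outer.outer_conj L (gen L (Or.inl ⟨rfl, hcard⟩)) ha2 (sq_of R hA)
    (fun ⟨g, hg⟩ => hout g hg.symm) (outer_of R L hA)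
  refine GoodA.of_conj (MulAut.conj g) ?_
  rw [hg]
  exact good_A R hA

end

/-- **`McL`, any universe.** -/
theorem spr {T : Type u} [Group T] (h : Spor.IsoMcL T) : Cfsg.Agent.H424.Spr.Spr T := by
  obtain ⟨hfin, hsim, hcard, ⟨L⟩⟩ := TypeM.FactsMcL.facts h
  obtain ⟨θ, R⟩ := exists_rep h
  have hcomm : ∀ x : T, orderOf x = 3 → ∃ s : T, orderOf s = 2 ∧ s * x = x * s := fun x hx =>
    Cfsg.Agent.McLType.ThreeElts.exists_commuting_involution_of_iso h x hx
  refine spr_of_out_two (exists_not_comm hcard (by norm_num)) (fun g hg => good_inner hcard R L hcomm g hg)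
    (fun a => ?_) (fun a ha hout => good_outer hcard R L a ha hout)
  by_cases hin : ∃ g, a = MulAut.conj g
  · obtain ⟨g, rfl⟩ := hin
    exact ⟨g * g, by rw [map_mul]⟩
  · push Not at hin
    exact mul_inner L (Or.inl rfl) (gen L (Or.inl ⟨rfl, hcard⟩)) hin hin

/-- **S3938, row `McL`.** -/
theorem spr_mcl (_known : Cfsg.Agent.H257.El.Known.{0}) {T : Type} [Group T] [Finite T] (h : Spor.IsoMcL T) :
    Cfsg.Agent.H424.Spr.Spr T := spr h

end Cfsg.Agent.H991.SprMcL
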